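import Mathlib
import Cfsg.Agent.Lib.Helper43.FieldAut.Count

set_option autoImplicit false

/-!
# Field automorphisms of prime order of `PSL_n(q)`: centralizer and class splitting
-/

namespace Cfsg.Agent.Lib.Helper43.FieldAut

open Matrix Cfsg.Agent.Lib.Helper43.AutPSLn

variable {n : ℕ} {F : Type*} [Field F]

local notation "Mx" => Matrix (Fin n) (Fin n) F
local notation "SLn" => Matrix.SpecialLinearGroup (Fin n) F
local notation "PSLn" => Matrix.ProjectiveSpecialLinearGroup (Fin n) F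
local notation "GLn" => GL (Fin n) F

variable [Fintype F] {p f : ℕ} [Fact p.Prime]

/-- The fixed field of an automorphism of order `r` of the field with `p^f` elements has
`p^(f/r)` elements, and `r ∣ f`. -/
theorem card_fixF_eq (hF : Fintype.card F = p ^ f) (σ : RingAut F) {r : ℕ} (hr : 0 < r)
    (ho : orderOf σ = r) : r ∣ f ∧ Nat.card (fixF σ) = p ^ (f / r) := by
  have hp : p.Prime := Fact.out
  have hcard : Nat.card (fixF σ) ^ r = p ^ f := by
    rw [← ho, card_fixF_pow, Nat.card_eq_fintype_card, hF]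
  have hdvd : Nat.card (fixF σ) ∣ p ^ f := by
    rw [← hcard]
    exact dvd_pow_self _ hr.ne'
  obtain ⟨a, -, hca⟩ := (Nat.dvd_prime_pow hp).mp hdvd
  have har : a * r = f := by
    rw [hca, ← pow_mul] at hcard
    exact Nat.pow_right_injective hp.two_le hcard
  have hfr : f / r = a := by
    rw [← har]
    exact Nat.mul_div_cancel a hr
  exact ⟨Dvd.intro_left a har, by rw [hfr, hca]⟩

theorem field_aut_main (hf : 1 ≤ f) (hF : Fintype.card F = p ^ f) (hn : 2 ≤ n) (x : MulAut PSLn)
    (hx : Cfsg.IsFieldAutClassPSL x) {r : ℕ} (hr : r.Prime) (hxr : orderOf x = r)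
    (F₀ : Type*) [Field F₀] [Fintype F₀] (hF₀ : Fintype.card F₀ = p ^ (f / r)) :
    r ∣ f ∧
      Nonempty (↥((cG : GLn →* MulAut PSLn).range ⊓ Subgroup.centralizer {x}) ≃*
        Matrix.ProjGenLinGroup (Fin n) F₀) ∧
      Cfsg.splitClassCount (cG : GLn →* MulAut PSLn).range (Cfsg.Inn PSLn) x =
        Nat.gcd n ((p ^ f - 1) / (p ^ (f / r) - 1)) := by
  obtain ⟨α, σ, hσ, hstd⟩ := hx
  rw [stdField_iff] at hstd
  have hx' : x = α⁻¹ * fG σ * α⁻¹⁻¹ := by
    rw [← hstd]
    group
  have ho : orderOf σ = r := by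
    rw [← orderOf_injective fG (fG_injective hn) σ, ← hstd, orderOf_conj_aut, hxr]
  obtain ⟨hdiv, hc0⟩ := card_fixF_eq hF σ hr.pos ho
  have hN := range_cG_normal (n := n) hf hF hn
  refine ⟨hdiv, ?_, ?_⟩
  · haveI : Fintype (fixF σ) := Fintype.ofFinite _
    have ι : F₀ ≃+* fixF σ := FiniteField.ringEquivOfCardEq (by
      rw [hF₀, ← hc0, Nat.card_eq_fintype_card])
    have hj : IsFixEmb σ ((fixF σ).subtype.comp (ι : F₀ →+* fixF σ)) := by
      intro b
      rw [← mem_fixF]
      constructor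
      · intro hb
        exact ⟨ι.symm ⟨b, hb⟩, by simp⟩
      · rintro ⟨c, rfl⟩
        exact (ι c).2
    rw [hx']
    exact centralizer_equiv hn σ _ hj hN α⁻¹
  · rw [hx', splitCount_field hn σ hN α⁻¹, hc0, Nat.card_eq_fintype_card, hF]

end Cfsg.Agent.Lib.Helper43.FieldAut
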