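import Mathlib
import Cfsg.Agent.Lib.Helper43.FieldAut.Main
import Cfsg.Agent.Lib.Helper45.HermSigma

set_option autoImplicit false

/-!
# Involutory graph-field automorphisms of `PSL_n(q)`: centralizer and class splitting
-/

namespace Cfsg.Agent.Lib.Helper43.FieldAut

open Matrix Cfsg.Agent.Lib.Helper43.AutPSLn

open scoped Pointwise

variable {n : ℕ} {F : Type*} [Field F]

local notation "Mx" => Matrix (Fin n) (Fin n) F
local notation "SLn" => Matrix.SpecialLinearGroup (Fin n) F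
local notation "PSLn" => Matrix.ProjectiveSpecialLinearGroup (Fin n) F
local notation "GLn" => GL (Fin n) F

/-- `g` preserves the `σ`-Hermitian form with Gram matrix `1`. -/
def IsUni (σ : RingAut F) (g : GL (Fin n) F) : Prop :=
  (g : Matrix (Fin n) (Fin n) F)ᵀ * (g : Matrix (Fin n) (Fin n) F).map σ = 1

theorem isUni_glmap (σ : RingAut F) (hσ2 : σ * σ = 1) (k : GLn) (hk : IsUni σ k) :
    Matrix.GeneralLinearGroup.map (σ : F →+* F) (glInvT k) = k := by
  have h1 : Matrix.GeneralLinearGroup.map (σ : F →+* F) k = glInvT k := by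
    apply Units.ext
    rw [glmap_coe, glInvT_coe]
    have h2 : ((k⁻¹ : GLn) : Mx)ᵀ * (k : Mx)ᵀ = 1 := by
      rw [← Matrix.transpose_mul, ← Units.val_mul, mul_inv_cancel, Units.val_one,
        Matrix.transpose_one]
    calc (k : Mx).map σ = ((k⁻¹ : GLn) : Mx)ᵀ * ((k : Mx)ᵀ * (k : Mx).map σ) := by
          rw [← Matrix.mul_assoc, h2, Matrix.one_mul]
      _ = ((k⁻¹ : GLn) : Mx)ᵀ := by
          have hk' : (k : Mx)ᵀ * (k : Mx).map σ = 1 := hk
          rw [hk', Matrix.mul_one]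
  rw [← h1, ← glmap_mul, hσ2, glmap_one]

theorem comm_of_isUni (σ : RingAut F) (hσ2 : σ * σ = 1) (k : GLn) (hk : IsUni σ k) :
    (cG k : MulAut PSLn) * (fG σ * iG) = (fG σ * iG) * cG k := by
  have e1 : (iG : MulAut PSLn) * cG k = cG (glInvT k) * iG := iG_cG k
  have e2 := fG_cG (n := n) σ (glInvT k)
  conv_rhs => rw [mul_assoc, e1, ← mul_assoc, e2, isUni_glmap σ hσ2 k hk]
  rw [mul_assoc]

theorem cent_graph [Finite F] (hn : 2 ≤ n) (σ : RingAut F) (hσ : σ ≠ 1) (hσ2 : σ * σ = 1)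
    (g : GLn) (h : (cG g : MulAut PSLn) * (fG σ * iG) = (fG σ * iG) * cG g) :
    ∃ k : GLn, IsUni σ k ∧ (cG g : MulAut PSLn) = cG k := by
  have h2' : ∀ a : F, σ (σ a) = a := fun a => by
    have := DFunLike.congr_fun hσ2 a
    exact this
  have hne : (σ : F →+* F) ≠ RingHom.id F := by
    intro h'
    apply hσ
    ext a
    exact DFunLike.congr_fun h' a
  have e1 : (iG : MulAut PSLn) * cG g = cG (glInvT g) * iG := iG_cG g
  have e2 := fG_cG (n := n) σ (glInvT g)
  have e3 : (fG σ * iG : MulAut PSLn) * cG g =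
      cG (Matrix.GeneralLinearGroup.map (σ : F →+* F) (glInvT g)) * (fG σ * iG) := by
    rw [mul_assoc (fG σ), e1, ← mul_assoc, e2, mul_assoc]
  rw [e3] at h
  have h1 : (cG g : MulAut PSLn) =
      cG (Matrix.GeneralLinearGroup.map (σ : F →+* F) (glInvT g)) := mul_right_cancel h
  have h2 : (cG ((Matrix.GeneralLinearGroup.map (σ : F →+* F) (glInvT g))⁻¹ * g) :
      MulAut PSLn) = 1 := by
    rw [map_mul, map_inv, ← h1, inv_mul_cancel]
  obtain ⟨lam, hlam⟩ := exists_scalar_of_cG_eq_one hn _ h2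
  have hA : ((g : Mx)ᵀ).map σ * (g : Mx) = (lam : F) • (1 : Mx) := by
    have h3 := congrArg (fun u : GLn => (u : Mx)) hlam
    simp only [Units.val_mul, ← map_inv, glmap_coe, glInvT_inv_coe,
      Matrix.GeneralLinearGroup.coe_scalar] at h3
    rw [h3, Matrix.scalar_apply, ← Matrix.smul_one_eq_diagonal]
  have hB : (g : Mx)ᵀ * (g : Mx).map σ = (lam : F) • (1 : Mx) := by
    have h4 := congrArg Matrix.transpose hA
    rw [Matrix.transpose_mul, Matrix.transpose_smul, Matrix.transpose_one, Matrix.transpose_map,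
      Matrix.transpose_transpose] at h4
    exact h4
  have hfix : σ (lam : F) = lam := by
    have h5 : ((g : Mx)ᵀ * (g : Mx).map σ).map σ = ((g : Mx)ᵀ).map σ * (g : Mx) := by
      have h6 := Matrix.map_mul (L := (g : Mx)ᵀ) (M := (g : Mx).map σ) (f := (σ : F →+* F))
      refine h6.trans ?_
      congr 1
      ext i j
      exact h2' _
    have h7 : ((lam : F) • (1 : Mx)).map σ = σ (lam : F) • (1 : Mx) := by
      ext i j
      by_cases hij : i = j
      · subst hij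
        simp
      · simp [Matrix.one_apply_ne hij]
    rw [hB, h7, hA] at h5
    have h8 := congrFun (congrFun h5 ⟨0, by omega⟩) ⟨0, by omega⟩
    simpa using h8
  obtain ⟨c, hc⟩ := Cfsg.Agent.Lib.Helper13.norm_surj_involution (σ : F →+* F) hne h2'
    (lam : F) lam.ne_zero hfix
  have hc' : c * σ c = (lam : F) := hc
  have hc0 : c ≠ 0 := by
    rintro rfl
    rw [zero_mul] at hc'
    exact lam.ne_zero hc'.symm
  refine ⟨Matrix.GeneralLinearGroup.scalar (Fin n) (Units.mk0 c hc0)⁻¹ * g, ?_, ?_⟩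
  · have hk : ((Matrix.GeneralLinearGroup.scalar (Fin n) (Units.mk0 c hc0)⁻¹ * g : GLn) : Mx) =
        c⁻¹ • (g : Mx) := by
      rw [Units.val_mul, Matrix.GeneralLinearGroup.coe_scalar, Matrix.scalar_apply,
        ← Matrix.smul_eq_diagonal_mul]
      simp
    have hm : (c⁻¹ • (g : Mx)).map σ = (σ c)⁻¹ • (g : Mx).map σ := by
      ext i j
      simp
    show (_ : Mx)ᵀ * (_ : Mx).map σ = 1
    rw [hk, hm, Matrix.transpose_smul, Matrix.smul_mul, Matrix.mul_smul, hB, smul_smul, smul_smul,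
      ← hc']
    have hsc0 : σ c ≠ 0 := (map_ne_zero σ).mpr hc0
    have : c⁻¹ * (σ c)⁻¹ * (c * σ c) = 1 := by
      field_simp
    rw [this, one_smul]
  · rw [map_mul, cG_scalar, one_mul]

section unitary

variable {q₀ : ℕ}

open Cfsg.Agent.Lib.Helper45 in
theorem mem_GU_iff [Fintype F] (hF2 : Fintype.card F = q₀ ^ 2) (σ : RingAut F) (hσq : ∀ a : F, σ a = a ^ q₀)
    (g : GLn) : g ∈ Cfsg.GU n F q₀ ↔ IsUni σ g := by
  have h1 : g ∈ Cfsg.GU n F q₀ ↔ IsHermIso n F q₀ (g : Mx) := Iff.rfl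
  rw [h1, isHermIso_iff_gram hF2]
  have h2 : (g : Mx).map (sigmaQ hF2) = (g : Mx).map σ := by
    ext i j
    show sigmaQ hF2 _ = σ _
    rw [sigmaQ_apply, hσq]
  rw [h2]
  rfl

/-- The map from the unitary group to `Aut PSL_n`. -/
noncomputable def thetaU (n : ℕ) (F : Type*) [Field F] (q₀ : ℕ) :
    ↥(Cfsg.GU n F q₀) →* MulAut (Matrix.ProjectiveSpecialLinearGroup (Fin n) F) :=
  (cG : GL (Fin n) F →* MulAut (Matrix.ProjectiveSpecialLinearGroup (Fin n) F)).comp
    (Cfsg.GU n F q₀).subtype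

theorem thetaU_apply (u : ↥(Cfsg.GU n F q₀)) : (thetaU n F q₀ u : MulAut PSLn) = cG (u : GLn) :=
  rfl

theorem thetaU_ker (hn : 2 ≤ n) :
    (thetaU n F q₀).ker = (Cfsg.Geo.scalars (Fin n) F).subgroupOf (Cfsg.GU n F q₀) := by
  ext u
  rw [MonoidHom.mem_ker, Subgroup.mem_subgroupOf, thetaU_apply]
  constructor
  · intro h
    obtain ⟨c, hc⟩ := exists_scalar_of_cG_eq_one hn _ h
    exact ⟨c, hc.symm⟩
  · rintro ⟨c, hc⟩
    rw [← hc]
    exact cG_scalar c

theorem inf_centralizer_graph [Fintype F] (hn : 2 ≤ n) (σ : RingAut F) (hσ : σ ≠ 1) (hσ2 : σ * σ = 1)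
    (hF2 : Fintype.card F = q₀ ^ 2) (hσq : ∀ a : F, σ a = a ^ q₀) :
    (cG : GLn →* MulAut PSLn).range ⊓ Subgroup.centralizer {(fG σ * iG : MulAut PSLn)} =
      (thetaU n F q₀).range := by
  ext y
  rw [Subgroup.mem_inf, Subgroup.mem_centralizer_iff]
  constructor
  · rintro ⟨⟨g, rfl⟩, hc⟩
    have h1 := hc (fG σ * iG) rfl
    obtain ⟨k, hk, e⟩ := cent_graph hn σ hσ hσ2 g h1.symm
    exact ⟨⟨k, (mem_GU_iff hF2 σ hσq k).mpr hk⟩, e.symm⟩
  · rintro ⟨u, rfl⟩
    refine ⟨⟨_, rfl⟩, ?_⟩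
    intro z hz
    rw [Set.mem_singleton_iff] at hz
    subst hz
    rw [thetaU_apply]
    exact (comm_of_isUni σ hσ2 _ ((mem_GU_iff hF2 σ hσq _).mp u.2)).symm

theorem centralizer_equiv_graph [Fintype F] (hn : 2 ≤ n) (σ : RingAut F) (hσ : σ ≠ 1) (hσ2 : σ * σ = 1)
    (hF2 : Fintype.card F = q₀ ^ 2) (hσq : ∀ a : F, σ a = a ^ q₀)
    (hN : ((cG : GLn →* MulAut PSLn).range).Normal) (a : MulAut PSLn) :
    Nonempty (↥((cG : GLn →* MulAut PSLn).range ⊓
      Subgroup.centralizer {a * (fG σ * iG : MulAut PSLn) * a⁻¹}) ≃* Cfsg.PGU n F q₀) := by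
  haveI := hN
  rw [inf_centralizer_conj, inf_centralizer_graph hn σ hσ hσ2 hF2 hσq]
  have e1 : ↥(Cfsg.GU n F q₀) ⧸ (thetaU n F q₀).ker ≃* Cfsg.PGU n F q₀ :=
    QuotientGroup.quotientMulEquivOfEq (thetaU_ker hn)
  have e2 := QuotientGroup.quotientKerEquivRange (thetaU n F q₀)
  have e3 := (MulAut.conj a).subgroupMap (thetaU n F q₀).range
  exact ⟨(e3.symm.trans e2.symm).trans e1⟩

/-- The determinants of the unitary group. -/
noncomputable def detU (n : ℕ) (F : Type*) [Field F] (q₀ : ℕ) : ↥(Cfsg.GU n F q₀) →* Fˣ :=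
  (Matrix.GeneralLinearGroup.det : GL (Fin n) F →* Fˣ).comp (Cfsg.GU n F q₀).subtype

theorem comap_sup_eq_graph (hn : 2 ≤ n) :
    (Cfsg.Inn PSLn ⊔ (thetaU n F q₀).range).comap (cG : GLn →* MulAut PSLn) =
      ((powMonoidHom n : Fˣ →* Fˣ).range ⊔ (detU n F q₀).range).comap
        (Matrix.GeneralLinearGroup.det : GLn →* Fˣ) := by
  ext g
  rw [Subgroup.mem_comap, Subgroup.mem_comap]
  constructor
  · intro hmem
    have hmem' : (cG g : MulAut PSLn) ∈ ((Cfsg.Inn PSLn : Subgroup (MulAut PSLn)) :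
        Set (MulAut PSLn)) * (((thetaU n F q₀).range :
          Subgroup (MulAut PSLn)) : Set (MulAut PSLn)) := by
      rw [← Subgroup.normal_mul]
      exact hmem
    obtain ⟨_, ⟨y, rfl⟩, _, ⟨u, rfl⟩, e⟩ := hmem'
    obtain ⟨s, rfl⟩ := pmn_surjective y
    have e1 : (MulAut.conj (pmn s) : MulAut PSLn) = cG (Matrix.SpecialLinearGroup.toGL s) :=
      (cG_toGL s).symm
    have e : (MulAut.conj (pmn s) : MulAut PSLn) * thetaU n F q₀ u = cG g := e
    rw [e1, thetaU_apply, ← map_mul] at e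
    have h1 : (cG (g⁻¹ * (Matrix.SpecialLinearGroup.toGL s * (u : GLn))) : MulAut PSLn) = 1 := by
      rw [map_mul cG, e, map_inv, inv_mul_cancel]
    obtain ⟨c, hc⟩ := exists_scalar_of_cG_eq_one hn _ h1
    have h2 : Matrix.SpecialLinearGroup.toGL s * (u : GLn) =
        g * Matrix.GeneralLinearGroup.scalar (Fin n) c := by
      rw [← hc, mul_inv_cancel_left]
    have h3 := congrArg (Matrix.GeneralLinearGroup.det : GLn →* Fˣ) h2
    rw [map_mul, map_mul, Matrix.GeneralLinearGroup.det_scalar, Fintype.card_fin] at h3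
    have h4 : Matrix.GeneralLinearGroup.det (Matrix.SpecialLinearGroup.toGL s) = 1 := by
      apply Units.ext
      rw [Matrix.GeneralLinearGroup.val_det_apply]
      exact s.2
    rw [h4, one_mul] at h3
    rw [Subgroup.mem_sup]
    refine ⟨(c⁻¹) ^ n, ⟨c⁻¹, rfl⟩, _, ⟨u, rfl⟩, ?_⟩
    show c⁻¹ ^ n * Matrix.GeneralLinearGroup.det (u : GLn) = _
    rw [h3, inv_pow, mul_comm, mul_assoc, mul_inv_cancel, mul_one]
  · intro hmem
    rw [Subgroup.mem_sup] at hmem
    obtain ⟨_, ⟨a, rfl⟩, _, ⟨u, rfl⟩, e⟩ := hmem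
    have e' : a ^ n * Matrix.GeneralLinearGroup.det (u : GLn) =
        Matrix.GeneralLinearGroup.det g := e
    set g₁ : GLn := g * (Matrix.GeneralLinearGroup.scalar (Fin n) a)⁻¹ * (u : GLn)⁻¹ with hg₁
    have hdet : Matrix.GeneralLinearGroup.det g₁ = 1 := by
      rw [hg₁, map_mul, map_mul, map_inv, map_inv, Matrix.GeneralLinearGroup.det_scalar,
        Fintype.card_fin, ← e', mul_comm (a ^ n), mul_inv_cancel_right, mul_inv_cancel]
    have hdet' : (g₁ : Mx).det = 1 := by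
      rw [← Matrix.GeneralLinearGroup.val_det_apply, hdet, Units.val_one]
    obtain ⟨s₁, hs₁⟩ : ∃ s₁ : SLn, Matrix.SpecialLinearGroup.toGL s₁ = g₁ :=
      ⟨⟨(g₁ : Mx), hdet'⟩, Units.ext rfl⟩
    have hg : g = g₁ * (u : GLn) * Matrix.GeneralLinearGroup.scalar (Fin n) a := by
      rw [hg₁]
      group
    have hcg : (cG g₁ : MulAut PSLn) = MulAut.conj (pmn s₁) := by
      rw [← hs₁]
      exact cG_toGL s₁
    rw [hg, map_mul, map_mul, cG_scalar, mul_one, hcg]
    exact Subgroup.mul_mem_sup ⟨_, rfl⟩ ⟨u, rfl⟩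

theorem relIndex_eq_graph (hn : 2 ≤ n) :
    (Cfsg.Inn PSLn ⊔ (thetaU n F q₀).range).relIndex (cG : GLn →* MulAut PSLn).range =
      ((powMonoidHom n : Fˣ →* Fˣ).range ⊔ (detU n F q₀).range).index := by
  haveI : Nonempty (Fin n) := ⟨⟨0, by omega⟩⟩
  rw [← Subgroup.index_comap, comap_sup_eq_graph hn,
    Subgroup.index_comap_of_surjective _ Matrix.GeneralLinearGroup.det_surjective]

theorem detU_range [Fintype F] (hn : 1 ≤ n) (σ : RingAut F) (hσ : σ ≠ 1) (hσ2 : σ * σ = 1)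
    (hF2 : Fintype.card F = q₀ ^ 2) (hσq : ∀ a : F, σ a = a ^ q₀) :
    (detU n F q₀).range = (powMonoidHom (q₀ - 1) : Fˣ →* Fˣ).range := by
  have h2' : ∀ a : F, σ (σ a) = a := fun a => by
    have := DFunLike.congr_fun hσ2 a
    exact this
  have hne : (σ : F →+* F) ≠ RingHom.id F := by
    intro h'
    apply hσ
    ext a
    exact DFunLike.congr_fun h' a
  have hq0 : 1 ≤ q₀ := by
    rcases Nat.eq_zero_or_pos q₀ with h0 | h0
    · exfalso
      rw [h0] at hF2
      have := Fintype.card_pos (α := F)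
      omega
    · exact h0
  ext w
  constructor
  · rintro ⟨u, rfl⟩
    have hu : IsUni σ (u : GLn) := (mem_GU_iff hF2 σ hσq _).mp u.2
    have hd : ((u : GLn) : Mx).det * σ (((u : GLn) : Mx).det) = 1 := by
      have h1 := congrArg Matrix.det hu
      rw [Matrix.det_mul, Matrix.det_transpose, Matrix.det_one] at h1
      have h3 : (((u : GLn) : Mx).map σ).det = σ (((u : GLn) : Mx).det) := by
        have := (RingHom.map_det (σ : F →+* F) ((u : GLn) : Mx)).symm
        exact this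
      rw [h3] at h1
      exact h1
    obtain ⟨b, hb0, hb⟩ := Cfsg.Agent.Lib.Helper13.hilbert90_involution (σ : F →+* F) hne h2'
      _ hd
    have hb' : b = b ^ q₀ * ((u : GLn) : Mx).det := by
      have : b = σ b * ((u : GLn) : Mx).det := hb
      rw [hσq] at this
      exact this
    refine ⟨(Units.mk0 b hb0)⁻¹, ?_⟩
    apply Units.ext
    show (((Units.mk0 b hb0)⁻¹ ^ (q₀ - 1) : Fˣ) : F) = ((u : GLn) : Mx).det
    rw [Units.val_pow_eq_pow_val, Units.val_inv_eq_inv_val, Units.val_mk0]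
    have hpow : b ^ q₀ = b ^ (q₀ - 1) * b := by
      rw [← pow_succ, Nat.sub_add_cancel hq0]
    have hbq : b ^ (q₀ - 1) ≠ 0 := pow_ne_zero _ hb0
    rw [hpow] at hb'
    have h5 : b ^ (q₀ - 1) * ((u : GLn) : Mx).det = 1 := by
      apply mul_left_cancel₀ hb0
      rw [mul_one]
      conv_rhs => rw [hb']
      ring
    rw [inv_pow]
    exact inv_eq_of_mul_eq_one_right h5
  · rintro ⟨a, rfl⟩
    have hc1 : ((a ^ (q₀ - 1) : Fˣ) : F) * σ ((a ^ (q₀ - 1) : Fˣ) : F) = 1 := by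
      rw [hσq, ← pow_succ', Units.val_pow_eq_pow_val, ← pow_mul]
      have h1 : (q₀ - 1) * (q₀ + 1) = Fintype.card F - 1 := by
        rw [hF2]
        have : q₀ ^ 2 = (q₀ - 1) * (q₀ + 1) + 1 := by
          obtain ⟨t, rfl⟩ : ∃ t, q₀ = t + 1 := ⟨q₀ - 1, by omega⟩
          simp only [Nat.add_sub_cancel]
          ring
        omega
      rw [h1]
      exact FiniteField.pow_card_sub_one_eq_one _ a.ne_zero
    have hmem : IsUni σ (dHom (⟨0, hn⟩ : Fin n) (a ^ (q₀ - 1)) : GLn) := by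
      show (_ : Mx)ᵀ * (_ : Mx).map σ = 1
      rw [dHom_apply, diagGL_coe, Matrix.diagonal_transpose, Matrix.diagonal_map (map_zero _),
        Matrix.diagonal_mul_diagonal, ← Matrix.diagonal_one]
      congr 1
      ext i
      by_cases hi : i = ⟨0, hn⟩
      · subst hi
        rw [Pi.mulSingle_eq_same]
        exact hc1
      · rw [Pi.mulSingle_eq_of_ne hi]
        simp
    refine ⟨⟨_, (mem_GU_iff hF2 σ hσq _).mpr hmem⟩, ?_⟩
    exact gl_det_dHom _ _

theorem index_sup_graph [Fintype F] (hF2 : Fintype.card F = q₀ ^ 2) :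
    ((powMonoidHom n : Fˣ →* Fˣ).range ⊔ (powMonoidHom (q₀ - 1) : Fˣ →* Fˣ).range).index =
      Nat.gcd n (q₀ - 1) := by
  rw [pow_range_sup, IsCyclic.index_powMonoidHom_range, Nat.card_units, Nat.card_eq_fintype_card,
    hF2]
  apply Nat.gcd_eq_right
  exact dvd_trans (Nat.gcd_dvd_right _ _) (Nat.sub_one_dvd_pow_sub_one _ _)

theorem splitCount_graph [Fintype F] (hn : 2 ≤ n) (σ : RingAut F) (hσ : σ ≠ 1) (hσ2 : σ * σ = 1)
    (hF2 : Fintype.card F = q₀ ^ 2) (hσq : ∀ a : F, σ a = a ^ q₀)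
    (hN : ((cG : GLn →* MulAut PSLn).range).Normal) (a : MulAut PSLn) :
    Cfsg.splitClassCount (cG : GLn →* MulAut PSLn).range (Cfsg.Inn PSLn)
        (a * (fG σ * iG : MulAut PSLn) * a⁻¹) = Nat.gcd n (q₀ - 1) := by
  haveI := hN
  rw [splitClassCount_eq _ _ inn_le_range_cG, inf_centralizer_conj,
    inf_centralizer_graph hn σ hσ hσ2 hF2 hσq]
  conv_lhs =>
    rw [← normal_map_conj (Cfsg.Inn PSLn) a, ← Subgroup.map_sup]
  conv_lhs =>
    arg 2
    rw [← normal_map_conj (cG : GLn →* MulAut PSLn).range a]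
  rw [Subgroup.relIndex_map_map_of_injective _ _ (MulAut.conj a).injective, relIndex_eq_graph hn,
    detU_range (by omega) σ hσ hσ2 hF2 hσq, index_sup_graph hF2]

end unitary

end Cfsg.Agent.Lib.Helper43.FieldAut
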