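import Mathlib
import Cfsg.Agent.Lib.Helper43.FieldAut.GraphCent

set_option autoImplicit false

/-!
# Involutory graph-field automorphisms of `PSL_n(q)`: the main statement
-/

namespace Cfsg.Agent.Lib.Helper43.FieldAut

open Matrix Cfsg.Agent.Lib.Helper43.AutPSLn

variable {n : ℕ} {F : Type*} [Field F] [Fintype F]

local notation "Mx" => Matrix (Fin n) (Fin n) F
local notation "SLn" => Matrix.SpecialLinearGroup (Fin n) F
local notation "PSLn" => Matrix.ProjectiveSpecialLinearGroup (Fin n) F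
local notation "GLn" => GL (Fin n) F

section frob

variable {q₀ : ℕ}

open Cfsg.Agent.Lib.Helper45 in
/-- The `q₀`-power map of the field with `q₀²` elements. -/
noncomputable def frobQ (hF2 : Fintype.card F = q₀ ^ 2) : RingAut F :=
  RingEquiv.ofRingHom (sigmaQ hF2) (sigmaQ hF2) (by ext a; exact conj_conj hF2 a)
    (by ext a; exact conj_conj hF2 a)

theorem frobQ_apply (hF2 : Fintype.card F = q₀ ^ 2) (a : F) : frobQ hF2 a = a ^ q₀ := rfl

open Cfsg.Agent.Lib.Helper45 in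
theorem frobQ_sq (hF2 : Fintype.card F = q₀ ^ 2) : frobQ hF2 * frobQ hF2 = 1 := by
  ext a
  exact conj_conj hF2 a

open Cfsg.Agent.Lib.Helper45 in
theorem frobQ_ne_one (hF2 : Fintype.card F = q₀ ^ 2) : frobQ hF2 ≠ 1 := by
  intro h
  have hq : 2 ≤ q₀ := two_le_q hF2
  obtain ⟨ζ, hζ⟩ := IsCyclic.exists_generator (α := Fˣ)
  have ho : orderOf ζ = Fintype.card F - 1 := by
    rw [orderOf_eq_card_of_forall_mem_zpowers hζ, Nat.card_units, Nat.card_eq_fintype_card]
  have h1 : (ζ : F) ^ q₀ = ζ := DFunLike.congr_fun h (ζ : F)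
  have h2 : ζ ^ (q₀ - 1) = 1 := by
    apply Units.ext
    rw [Units.val_pow_eq_pow_val, Units.val_one]
    have h3 : (ζ : F) ^ (q₀ - 1) * ζ = 1 * ζ := by
      rw [← pow_succ, Nat.sub_add_cancel (by omega), h1, one_mul]
    exact mul_right_cancel₀ ζ.ne_zero h3
  have h3 := orderOf_dvd_of_pow_eq_one h2
  rw [ho, hF2] at h3
  have h4 := Nat.le_of_dvd (by omega) h3
  have h5 : q₀ ^ 2 ≥ 2 * q₀ := by nlinarith
  omega

end frob

variable {p f : ℕ} [Fact p.Prime]

theorem ringAut_comm (hF : Fintype.card F = p ^ f) (a b : RingAut F) : a * b = b * a := by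
  obtain ⟨e⟩ := AutPSL2.exists_ringAut_equiv (F := F) hF
  apply e.injective
  rw [map_mul, map_mul, mul_comm]

theorem isCyclic_ringAut (hF : Fintype.card F = p ^ f) : IsCyclic (RingAut F) := by
  obtain ⟨e⟩ := AutPSL2.exists_ringAut_equiv (F := F) hF
  exact isCyclic_of_surjective e.symm e.symm.surjective

theorem involution_unique (hF : Fintype.card F = p ^ f) (a b : RingAut F) (ha : a ≠ 1)
    (ha2 : a * a = 1) (hb : b ≠ 1) (hb2 : b * b = 1) : a = b := by
  classical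
  haveI := isCyclic_ringAut hF
  haveI : Finite (RingAut F) := finite_ringAut F
  haveI : Fintype (RingAut F) := Fintype.ofFinite _
  by_contra hab
  have h := IsCyclic.card_pow_eq_one_le (α := RingAut F) (n := 2) (by norm_num)
  have hsub : ({1, a, b} : Finset (RingAut F)) ⊆ Finset.univ.filter (fun x => x ^ 2 = 1) := by
    intro x hx
    simp only [Finset.mem_insert, Finset.mem_singleton] at hx
    rw [Finset.mem_filter]
    refine ⟨Finset.mem_univ _, ?_⟩
    rcases hx with rfl | rfl | rfl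
    · simp
    · rw [pow_two, ha2]
    · rw [pow_two, hb2]
  have hcard : ({1, a, b} : Finset (RingAut F)).card = 3 := by
    rw [Finset.card_insert_of_notMem, Finset.card_insert_of_notMem, Finset.card_singleton]
    · simpa using hab
    · simp only [Finset.mem_insert, Finset.mem_singleton, not_or]
      exact ⟨Ne.symm ha, Ne.symm hb⟩
  have := Finset.card_le_card hsub
  omega

theorem conj_std_graph (hf : 1 ≤ f) (hF : Fintype.card F = p ^ f) (hn : 2 ≤ n) (σ : RingAut F)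
    (c : MulAut PSLn) :
    ∃ k : GLn, c * (fG σ * iG) * c⁻¹ = cG k * (fG σ * iG) * (cG k)⁻¹ := by
  obtain ⟨g, ρ, e, rfl⟩ := aut_decomp_all hf hF hn c
  refine ⟨g, ?_⟩
  have h1 : (fG ρ * jG e : MulAut PSLn) * (fG σ * iG) = (fG σ * iG) * (fG ρ * jG e) := by
    have a1 : (fG ρ : MulAut PSLn) * fG σ = fG σ * fG ρ := by
      rw [← map_mul, ← map_mul, ringAut_comm hF]
    have a2 : (iG : MulAut PSLn) * fG ρ = fG ρ * iG := iG_fG ρ
    have a3 : (jG e : MulAut PSLn) * fG σ = fG σ * jG e := jG_fG e σ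
    have a4 : (jG e : MulAut PSLn) * iG = iG * jG e := by
      rcases zmod2_cases e with rfl | rfl
      · rw [jG_zero, one_mul, mul_one]
      · rw [jG_one]
    calc (fG ρ * jG e : MulAut PSLn) * (fG σ * iG) = fG ρ * ((jG e * fG σ) * iG) := by
          simp only [mul_assoc]
      _ = fG ρ * (fG σ * (jG e * iG)) := by rw [a3]; simp only [mul_assoc]
      _ = (fG ρ * fG σ) * (iG * jG e) := by rw [a4]; simp only [mul_assoc]
      _ = fG σ * ((fG ρ * iG) * jG e) := by rw [a1]; simp only [mul_assoc]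
      _ = fG σ * ((iG * fG ρ) * jG e) := by rw [a2]
      _ = _ := by simp only [mul_assoc]
  calc (cG g * fG ρ * jG e : MulAut PSLn) * (fG σ * iG) * (cG g * fG ρ * jG e)⁻¹
      = cG g * ((fG ρ * jG e) * (fG σ * iG) * (fG ρ * jG e)⁻¹) * (cG g)⁻¹ := by group
    _ = _ := by rw [h1, mul_inv_cancel_right]

theorem graph_field_main (hf : 1 ≤ f) (hF : Fintype.card F = p ^ f) (hn : 3 ≤ n)
    (x : MulAut PSLn) (hx : Cfsg.IsGraphFieldAutClassPSL x) (hx2 : orderOf x = 2) :
    Even f ∧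
      (∀ y : MulAut PSLn, Cfsg.IsGraphFieldAutClassPSL y → orderOf y = 2 →
        Cfsg.IsConjUnder (cG : GLn →* MulAut PSLn).range x y) ∧
      Nonempty (↥((cG : GLn →* MulAut PSLn).range ⊓ Subgroup.centralizer {x}) ≃*
        Cfsg.PGU n F (p ^ (f / 2))) ∧
      Cfsg.splitClassCount (cG : GLn →* MulAut PSLn).range (Cfsg.Inn PSLn) x =
        Nat.gcd n (p ^ (f / 2) - 1) := by
  obtain ⟨-, α, φ, γ, σ, hσ, hφ, hγ, heq⟩ := hx
  rw [stdField_iff] at hφ
  rw [invTranspose_iff] at hγ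
  subst hφ hγ
  have ho : orderOf (fG σ * iG : MulAut PSLn) = 2 := by
    rw [← heq, orderOf_conj_aut, hx2]
  obtain ⟨-, hσ2⟩ := graphField_order hn σ Nat.prime_two ho
  have hσ1 : σ ≠ 1 := hσ
  have hoσ : orderOf σ = 2 := orderOf_eq_prime (by rw [pow_two]; exact hσ2) hσ1
  obtain ⟨hdiv, -⟩ := card_fixF_eq hF σ (by norm_num) hoσ
  have hF2 : Fintype.card F = (p ^ (f / 2)) ^ 2 := by
    rw [hF, ← pow_mul, Nat.div_mul_cancel hdiv]
  have hτ : σ = frobQ hF2 :=
    involution_unique hF σ (frobQ hF2) hσ1 hσ2 (frobQ_ne_one hF2) (frobQ_sq hF2)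
  have hσq : ∀ a : F, σ a = a ^ (p ^ (f / 2)) := by
    intro a
    rw [hτ]
    rfl
  have hx' : x = α⁻¹ * (fG σ * iG) * α⁻¹⁻¹ := by
    rw [← heq]
    group
  have hN := range_cG_normal (n := n) hf hF (by omega)
  refine ⟨even_iff_two_dvd.mpr hdiv, ?_, ?_, ?_⟩
  · intro y hy hy2
    obtain ⟨-, β, φ', γ', τ, hτ1, hφ', hγ', heq'⟩ := hy
    rw [stdField_iff] at hφ'
    rw [invTranspose_iff] at hγ'
    subst hφ' hγ'
    have ho' : orderOf (fG τ * iG : MulAut PSLn) = 2 := by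
      rw [← heq', orderOf_conj_aut, hy2]
    obtain ⟨-, hτ2⟩ := graphField_order hn τ Nat.prime_two ho'
    have hτσ : τ = σ := involution_unique hF τ σ hτ1 hτ2 hσ1 hσ2
    rw [hτσ] at heq'
    have hy' : y = β⁻¹ * (fG σ * iG) * β⁻¹⁻¹ := by
      rw [← heq']
      group
    obtain ⟨ka, hka⟩ := conj_std_graph hf hF (by omega) σ α⁻¹
    obtain ⟨kb, hkb⟩ := conj_std_graph hf hF (by omega) σ β⁻¹
    refine ⟨cG (kb * ka⁻¹), ⟨_, rfl⟩, ?_⟩
    rw [hy', hx', hkb, hka, map_mul, map_inv]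
    group
  · rw [hx']
    exact centralizer_equiv_graph (by omega) σ hσ1 hσ2 hF2 hσq hN α⁻¹
  · rw [hx']
    exact splitCount_graph (by omega) σ hσ1 hσ2 hF2 hσq hN α⁻¹

end Cfsg.Agent.Lib.Helper43.FieldAut
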